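import Mathlib
import Cfsg.Prelude.Def_Solvable
import Cfsg.Agent.Frob.Kernel
import Cfsg.Agent.Solv.CoprimeSylow

set_option autoImplicit false
set_option linter.style.haveILetI false

namespace Cfsg.Agent.Frob
open Subgroup
open scoped Pointwise

universe u
variable {G : Type u} [Group G]

theorem centralizer_le {H : Subgroup G} (hH : Cfsg.IsFrobeniusComplement H) {x : G} (hx : x ∈ H) (h1 : x ≠ 1) :
    Subgroup.centralizer ({x} : Set G) ≤ H := by
  intro g hg
  refine ti hH hx h1 ?_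
  rw [mul_assoc, Subgroup.mem_centralizer_iff.1 hg x rfl, inv_mul_cancel_left]
  exact hx

theorem coprime_of_centralizer_le [Finite G] {H : Subgroup G}
    (h : ∀ x ∈ H, x ≠ 1 → Subgroup.centralizer ({x} : Set G) ≤ H) : (Nat.card H).Coprime H.index := by
  refine Nat.coprime_of_dvd fun p hp hd hi => ?_
  haveI := Fact.mk hp
  obtain ⟨x, hx⟩ := exists_prime_orderOf_dvd_card' p hd
  have hx1 : (x : G) ≠ 1 := fun e => hp.one_lt.ne' (by rw [← hx, ← Subgroup.orderOf_coe, e, orderOf_one])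
  have hzp : IsPGroup p (Subgroup.zpowers (x : G)) :=
    IsPGroup.of_card (n := 1) (by rw [Nat.card_zpowers, Subgroup.orderOf_coe, hx, pow_one])
  obtain ⟨S, hS⟩ := hzp.exists_le_sylow
  haveI : Nontrivial (S : Subgroup G) := (Subgroup.nontrivial_iff_ne_bot _).2 fun e => hx1 (by
    have := hS (Subgroup.mem_zpowers (x : G))
    rwa [e, Subgroup.mem_bot] at this)
  haveI : Nontrivial (Subgroup.center (S : Subgroup G)) := S.isPGroup'.center_nontrivial
  obtain ⟨z, hz⟩ := exists_ne (1 : Subgroup.center (S : Subgroup G))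
  set z' : G := ((z : (S : Subgroup G)) : G) with hz'
  have hz1 : z' ≠ 1 := fun e => hz (Subtype.ext (Subtype.ext e))
  have hzc : ∀ y ∈ (S : Subgroup G), y * z' = z' * y := fun y hy =>
    congrArg Subtype.val (Subgroup.mem_center_iff.1 z.2 ⟨y, hy⟩)
  have hzH : z' ∈ H := h x x.2 hx1 (Subgroup.mem_centralizer_singleton_iff.2
    (hzc x (hS (Subgroup.mem_zpowers _))).symm)
  have hSH : (S : Subgroup G) ≤ H := fun y hy =>
    h z' hzH hz1 (Subgroup.mem_centralizer_singleton_iff.2 (hzc y hy))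
  exact S.not_dvd_index (hi.trans (Subgroup.index_dvd_of_le hSH))

theorem coprime_index [Finite G] {H : Subgroup G} (hH : Cfsg.IsFrobeniusComplement H) :
    (Nat.card H).Coprime H.index :=
  coprime_of_centralizer_le fun _ hx h1 => centralizer_le hH hx h1

theorem inf_subgroupOf {H L : Subgroup G} (hH : Cfsg.IsFrobeniusComplement H) (x : G)
    (hne : ∃ a ∈ L, a ≠ 1 ∧ x⁻¹ * a * x ∈ H) (hnle : ¬ L ≤ MulAut.conj x • H) :
    Cfsg.IsFrobeniusComplement ((MulAut.conj x • H).subgroupOf L) := by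
  refine ⟨fun e => ?_, fun e => hnle (Subgroup.subgroupOf_eq_top.1 e), fun g hg => ?_⟩
  · obtain ⟨a, ha, ha1, hax⟩ := hne
    have h1 : (⟨a, ha⟩ : L) ∈ (MulAut.conj x • H).subgroupOf L :=
      Cfsg.Agent.Solv.mem_conj_smul.2 hax
    rw [e, Subgroup.mem_bot] at h1
    exact ha1 (congrArg Subtype.val h1)
  · rw [eq_bot_iff]
    intro y hy'
    obtain ⟨hy1, hy2⟩ : y ∈ (MulAut.conj x • H).subgroupOf L ∧
        y ∈ MulAut.conj g • (MulAut.conj x • H).subgroupOf L := hy'
    rw [Cfsg.Agent.Solv.mem_conj_smul, Subgroup.mem_subgroupOf,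
      Cfsg.Agent.Solv.mem_conj_smul] at hy2
    rw [Subgroup.mem_subgroupOf, Cfsg.Agent.Solv.mem_conj_smul] at hy1
    rw [Subgroup.mem_bot]
    by_contra hy
    apply hg
    have h2 := ti hH (x := x⁻¹ * (g : G) * x) hy1 (fun e => hy (Subtype.ext (by
      calc (y : G) = x * (x⁻¹ * (y : G) * x) * x⁻¹ := by group
        _ = 1 := by rw [e, mul_one, mul_inv_cancel])))
      (by
        have e : (x⁻¹ * (g : G) * x)⁻¹ * (x⁻¹ * (y : G) * x) * (x⁻¹ * (g : G) * x) =
          x⁻¹ * ((g⁻¹ * y * g : L) : G) * x := by push_cast; group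
        rw [e]; exact hy2)
    rw [Subgroup.mem_subgroupOf, Cfsg.Agent.Solv.mem_conj_smul]
    exact h2

theorem card_compl_kernel [Finite G] {H : Subgroup G} (hH : Cfsg.IsFrobeniusComplement H) :
    2 * Nat.card ((Cfsg.frobeniusKernel H)ᶜ : Set G) ≥ Nat.card G := by
  classical
  have h1 : Nat.card (Cfsg.frobeniusKernel H) + Nat.card ((Cfsg.frobeniusKernel H)ᶜ : Set G) = Nat.card G := by
    rw [← Nat.card_sum]; exact Nat.card_congr (Equiv.Set.sumCompl _)
  rw [card_kernel hH] at h1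
  have h2 : 2 ≤ Nat.card H := (Subgroup.one_lt_card_iff_ne_bot H).2 hH.1
  have h3 := H.index_mul_card
  nlinarith

/-- A subgroup whose order is prime to the index of a Frobenius complement lies in a conjugate of it. -/
theorem exists_le_conj [Finite G] {H : Subgroup G} (hH : Cfsg.IsFrobeniusComplement H) (L : Subgroup G)
    (hL : (Nat.card L).Coprime H.index) : ∃ x : G, L ≤ MulAut.conj x • H := by
  classical
  obtain ⟨N, hN, -, hc⟩ := kernel_theorem hH
  have hmem : ∀ a ∈ L, a ≠ 1 → ∃ x : G, x⁻¹ * a * x ∈ H := by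
    intro a ha ha1
    refine (not_mem_kernel fun hk => ha1 ?_).2
    rw [← hN] at hk
    have hd2 : orderOf a ∣ H.index := hc.index_eq_card ▸ Subgroup.orderOf_dvd_natCard N hk
    exact orderOf_eq_one_iff.1 (Nat.eq_one_of_dvd_coprimes hL (Subgroup.orderOf_dvd_natCard L ha) hd2)
  by_cases hL1 : L = ⊥
  · exact ⟨1, by rw [hL1]; exact bot_le⟩
  obtain ⟨a, ha, ha1⟩ := L.bot_or_exists_ne_one.resolve_left hL1
  obtain ⟨x, hx⟩ := hmem a ha ha1
  by_contra hall
  push Not at hall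
  have hA := inf_subgroupOf hH x ⟨a, ha, ha1, hx⟩ (hall x)
  set A := (MulAut.conj x • H).subgroupOf L with hAdef
  obtain ⟨b, hb, hb1⟩ : ∃ b ∈ Cfsg.frobeniusKernel A, b ≠ 1 := by
    by_contra hno
    push Not at hno
    have h1 : Nat.card (Cfsg.frobeniusKernel A) = 1 :=
      Nat.card_eq_one_iff_unique.2 ⟨⟨fun u v => Subtype.ext ((hno u u.2).trans (hno v v.2).symm)⟩,
        ⟨⟨1, Or.inl rfl⟩⟩⟩
    rw [card_kernel hA] at h1
    exact hA.2.1 (Subgroup.index_eq_one.1 h1)
  obtain ⟨y, hy⟩ := hmem (b : G) b.2 (fun e => hb1 (Subtype.ext e))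
  have hB := inf_subgroupOf hH y ⟨b, b.2, fun e => hb1 (Subtype.ext e), hy⟩ (hall y)
  set B := (MulAut.conj y • H).subgroupOf L with hBdef
  have hdis : ∀ c : L, c ∉ Cfsg.frobeniusKernel A → c ∈ Cfsg.frobeniusKernel B := by
    intro c hcA
    by_contra hcB
    obtain ⟨hc1, u, hu⟩ := not_mem_kernel hcA
    obtain ⟨-, v, hv⟩ := not_mem_kernel hcB
    rw [hAdef, Subgroup.mem_subgroupOf, Cfsg.Agent.Solv.mem_conj_smul] at hu
    rw [hBdef, Subgroup.mem_subgroupOf, Cfsg.Agent.Solv.mem_conj_smul] at hv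
    push_cast at hu hv
    set P := x⁻¹ * (u : G)⁻¹ * (v : G) * y with hP
    have hne : x⁻¹ * ((u : G)⁻¹ * (c : G) * (u : G)) * x ≠ 1 := fun e => hc1 (Subtype.ext (by
      calc (c : G) = (u : G) * x * (x⁻¹ * ((u : G)⁻¹ * (c : G) * (u : G)) * x) * ((u : G) * x)⁻¹ := by group
        _ = 1 := by rw [e, mul_one, mul_inv_cancel]))
    have hPH : P ∈ H := ti hH hu hne (by
      have e : P⁻¹ * (x⁻¹ * ((u : G)⁻¹ * (c : G) * (u : G)) * x) * P = y⁻¹ * ((v : G)⁻¹ * (c : G) * (v : G)) * y := by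
        rw [hP]; group
      rw [e]; exact hv)
    rcases mem_kernel_iff.1 hb with h | h
    · exact hb1 h
    refine h (v⁻¹ * u) ?_
    rw [hAdef, Subgroup.mem_subgroupOf, Cfsg.Agent.Solv.mem_conj_smul]
    push_cast
    have e : x⁻¹ * (((v : G)⁻¹ * (u : G))⁻¹ * (b : G) * ((v : G)⁻¹ * (u : G))) * x = P * (y⁻¹ * (b : G) * y) * P⁻¹ := by
      rw [hP]; group
    rw [e]
    exact H.mul_mem (H.mul_mem hPH hy) (H.inv_mem hPH)
  let emb : ((Cfsg.frobeniusKernel A)ᶜ : Set L) ⊕ ((Cfsg.frobeniusKernel B)ᶜ : Set L) → {c : L // c ≠ 1} :=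
    Sum.elim (fun c => ⟨c.1, fun e => c.2 (e ▸ Or.inl rfl)⟩) (fun c => ⟨c.1, fun e => c.2 (e ▸ Or.inl rfl)⟩)
  have hinj : Function.Injective emb := by
    rintro (c | c) (c' | c') e
    · exact congrArg Sum.inl (Subtype.ext (congrArg (fun z : {c : L // c ≠ 1} => z.1) e))
    · have h1 : c.1 = c'.1 := congrArg (fun z : {c : L // c ≠ 1} => z.1) e
      exact absurd (hdis c.1 c.2) (h1 ▸ c'.2)
    · have h1 : c.1 = c'.1 := congrArg (fun z : {c : L // c ≠ 1} => z.1) e
      exact absurd (hdis c'.1 c'.2) (h1 ▸ c.2)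
    · exact congrArg Sum.inr (Subtype.ext (congrArg (fun z : {c : L // c ≠ 1} => z.1) e))
  have h1 := Nat.card_le_card_of_injective emb hinj
  rw [Nat.card_sum] at h1
  have h2 : Nat.card {c : L // c ≠ 1} = Nat.card L - 1 := by
    haveI := Fintype.ofFinite L
    rw [Nat.card_eq_fintype_card, Nat.card_eq_fintype_card, Fintype.card_subtype_compl, Fintype.card_subtype_eq]
  have h3 := card_compl_kernel hA
  have h4 := card_compl_kernel hB
  have h5 : 0 < Nat.card L := Nat.card_pos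
  omega

theorem card_dvd_of_le [Finite G] {H H₀ : Subgroup G} (hH : Cfsg.IsFrobeniusComplement H)
    (hH₀ : Cfsg.IsFrobeniusComplement H₀) (hle : Nat.card H₀ ≤ Nat.card H) :
    (Nat.card H₀).Coprime H.index := by
  refine Nat.coprime_of_dvd fun q hq hd hi => ?_
  haveI := Fact.mk hq
  obtain ⟨N, hN, hNn, hc⟩ := kernel_theorem hH
  haveI := hNn
  have hNc : Nat.card N = H.index := hc.index_eq_card.symm
  have hcop := coprime_index hH
  obtain ⟨S⟩ := (inferInstance : Nonempty (Sylow q N))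
  set S' : Subgroup G := (S : Subgroup N).map N.subtype with hS'
  have hSp : IsPGroup q S' := S.isPGroup'.map _
  have hS0 : S' ≠ ⊥ := fun e => by
    have h1 : (S : Subgroup N) = ⊥ := (Subgroup.map_eq_bot_iff_of_injective _ N.subtype_injective).1 e
    exact S.ne_bot_of_dvd_card (hNc ▸ hi) h1
  obtain ⟨x, hx⟩ := exists_le_conj hH₀ S' (by
    obtain ⟨k, hk⟩ := IsPGroup.iff_card.1 hSp
    rw [hk]
    refine Nat.Coprime.pow_left k (hq.coprime_iff_not_dvd.2 fun h2 => ?_)
    have h1 := Nat.dvd_gcd hd h2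
    rw [coprime_index hH₀] at h1
    exact hq.not_dvd_one h1)
  have hnorm : Subgroup.normalizer (S' : Set G) ≤ MulAut.conj x • H₀ := by
    intro g hg
    obtain ⟨s, hs, hs1⟩ := S'.bot_or_exists_ne_one.resolve_left hS0
    have h1 := hx hs
    have h2 := hx ((Subgroup.mem_normalizer_iff''.1 hg s).1 hs)
    rw [Cfsg.Agent.Solv.mem_conj_smul] at h1 h2 ⊢
    refine ti hH₀ h1 (fun e => hs1 (calc s = x * (x⁻¹ * s * x) * x⁻¹ := by group
      _ = 1 := by rw [e, mul_one, mul_inv_cancel])) ?_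
    have e : (x⁻¹ * g * x)⁻¹ * (x⁻¹ * s * x) * (x⁻¹ * g * x) = x⁻¹ * (g⁻¹ * s * g) * x := by group
    rw [e]; exact h2
  have hfr := Sylow.normalizer_sup_eq_top S
  have hsup : MulAut.conj x • H₀ ⊔ N = ⊤ := top_le_iff.1 (hfr ▸ sup_le_sup_right hnorm N)
  have hidx : Nat.card H ∣ Nat.card H₀ := by
    have h1 : N.index ∣ Nat.card (MulAut.conj x • H₀ : Subgroup G) := by
      rw [← Subgroup.relIndex_top_right N, ← hsup, Subgroup.relIndex_sup_right]
      exact Subgroup.relIndex_dvd_card _ _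
    rwa [hc.symm.index_eq_card, ← Nat.card_congr (Subgroup.equivSMul (MulAut.conj x) H₀).toEquiv] at h1
  have heq : Nat.card H₀ = Nat.card H := le_antisymm hle (Nat.le_of_dvd Nat.card_pos hidx)
  have h2 := Nat.dvd_gcd (heq ▸ hd) hi
  rw [hcop] at h2
  exact hq.not_dvd_one h2

theorem conj_le_of_card_le [Finite G] {H H₀ : Subgroup G} (hH : Cfsg.IsFrobeniusComplement H)
    (hH₀ : Cfsg.IsFrobeniusComplement H₀) (hle : Nat.card H₀ ≤ Nat.card H) :
    ∃ g : G, MulAut.conj g • H₀ ≤ H := by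
  obtain ⟨x, hx⟩ := exists_le_conj hH H₀ (card_dvd_of_le hH hH₀ hle)
  refine ⟨x⁻¹, fun y hy => ?_⟩
  rw [Cfsg.Agent.Solv.mem_conj_smul] at hy
  have := hx hy
  rw [Cfsg.Agent.Solv.mem_conj_smul] at this
  simpa [mul_assoc] using this

theorem isFrobeniusComplement_of_fpf [Finite G] {K H : Subgroup G} [K.Normal] (hc : Subgroup.IsComplement' K H)
    (hK : K ≠ ⊥) (hH : H ≠ ⊥) (hfpf : ∀ h ∈ H, h ≠ 1 → K ⊓ Subgroup.centralizer {h} = ⊥) :
    Cfsg.IsFrobeniusComplement H := by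
  refine ⟨hH, fun e => hK (by have := hc.disjoint.eq_bot; rwa [e, inf_top_eq] at this), fun g hg => ?_⟩
  rw [eq_bot_iff]
  intro y hy'
  obtain ⟨hy1, hy2⟩ : y ∈ H ∧ y ∈ MulAut.conj g • H := hy'
  rw [Cfsg.Agent.Solv.mem_conj_smul] at hy2
  rw [Subgroup.mem_bot]
  by_contra hy
  apply hg
  have hg' : g ∈ ((K ⊔ H : Subgroup G) : Set G) := by rw [hc.sup_eq_top]; trivial
  rw [Subgroup.normal_mul] at hg'
  obtain ⟨k, hk, h, hh, rfl⟩ := hg'
  have h2 : k⁻¹ * y * k ∈ H := by
    have e : k⁻¹ * y * k = h * ((k * h)⁻¹ * y * (k * h)) * h⁻¹ := by group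
    rw [e]; exact H.mul_mem (H.mul_mem hh hy2) (H.inv_mem hh)
  have h3 : k⁻¹ * y * k * y⁻¹ ∈ K ⊓ H := by
    refine ⟨?_, H.mul_mem h2 (H.inv_mem hy1)⟩
    rw [mul_assoc k⁻¹, mul_assoc k⁻¹]
    exact K.mul_mem (K.inv_mem hk) (‹K.Normal›.conj_mem k hk y)
  rw [hc.disjoint.eq_bot, Subgroup.mem_bot] at h3
  have h4 : k ∈ K ⊓ Subgroup.centralizer {y} := by
    refine ⟨hk, Subgroup.mem_centralizer_singleton_iff.2 ?_⟩
    have h5 : k⁻¹ * y * k = y := mul_inv_eq_one.1 h3
    calc k * y = k * (k⁻¹ * y * k) := by rw [h5]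
      _ = y * k := by group
  rw [hfpf y hy1 hy, Subgroup.mem_bot] at h4
  subst h4; simpa using hh

theorem fpf_of_isFrobeniusComplement {K H : Subgroup G} (hd : K ⊓ H = ⊥)
    (hH : Cfsg.IsFrobeniusComplement H) {h : G} (hh : h ∈ H) (h1 : h ≠ 1) :
    K ⊓ Subgroup.centralizer {h} = ⊥ := by
  rw [eq_bot_iff, ← hd]
  exact fun k hk => ⟨hk.1, centralizer_le hH hh h1 hk.2⟩

theorem eq_kernel_of_isComplement [Finite G] {K H : Subgroup G} (hK : K.Normal) (hc : Subgroup.IsComplement' K H)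
    (hH : Cfsg.IsFrobeniusComplement H) : (K : Set G) = Cfsg.frobeniusKernel H := by
  refine Set.eq_of_subset_of_ncard_le (fun k hk => mem_kernel_iff.2 ?_) ?_ (Set.toFinite _)
  · by_cases h1 : k = 1
    · exact Or.inl h1
    refine Or.inr fun x hx => h1 ?_
    have h2 : x⁻¹ * k * x ∈ K ⊓ H := ⟨by simpa using hK.conj_mem k hk x⁻¹, hx⟩
    rw [hc.disjoint.eq_bot, Subgroup.mem_bot] at h2
    calc k = x * (x⁻¹ * k * x) * x⁻¹ := by group
      _ = 1 := by rw [h2, mul_one, mul_inv_cancel]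
  · rw [← Nat.card_coe_set_eq, ← Nat.card_coe_set_eq, card_kernel hH, hc.index_eq_card]
    rfl

theorem even_complement [Finite G] {K H : Subgroup G} [hKn : K.Normal]
    (hfpf : ∀ h ∈ H, h ≠ 1 → K ⊓ Subgroup.centralizer {h} = ⊥)
    {s : G} (hs : s ∈ H) (hs2 : orderOf s = 2) : ∀ k ∈ K, s * k * s⁻¹ = k⁻¹ := by
  have hss : s * s = 1 := by rw [← sq, ← hs2, pow_orderOf_eq_one]
  have hsi : s⁻¹ = s := inv_eq_of_mul_eq_one_right hss
  have hs1 : s ≠ 1 := fun e => by rw [e, orderOf_one] at hs2; omega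
  let f : K → K := fun k => ⟨(k : G)⁻¹ * (s * k * s⁻¹), K.mul_mem (K.inv_mem k.2) (hKn.conj_mem _ k.2 s)⟩
  have hinj : Function.Injective f := by
    intro a b e
    have e1 : (a : G)⁻¹ * (s * a * s⁻¹) = (b : G)⁻¹ * (s * b * s⁻¹) := congrArg Subtype.val e
    have h2 : (b : G) * (a : G)⁻¹ ∈ K ⊓ Subgroup.centralizer {s} := by
      refine ⟨K.mul_mem b.2 (K.inv_mem a.2), Subgroup.mem_centralizer_singleton_iff.2 ?_⟩
      calc (b : G) * (a : G)⁻¹ * s = (b : G) * ((a : G)⁻¹ * (s * a * s⁻¹)) * s * (a : G)⁻¹ := by group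
        _ = s * ((b : G) * (a : G)⁻¹) := by rw [e1]; group
    rw [hfpf s hs hs1, Subgroup.mem_bot, mul_inv_eq_one] at h2
    exact (Subtype.ext h2).symm
  intro y hy
  obtain ⟨k, hk⟩ := Finite.surjective_of_injective hinj ⟨y, hy⟩
  have hk' : (k : G)⁻¹ * (s * k * s⁻¹) = y := congrArg Subtype.val hk
  rw [← hk', hsi]
  calc s * ((k : G)⁻¹ * (s * k * s)) * s = s * (k : G)⁻¹ * s * k * (s * s) := by group
    _ = ((k : G)⁻¹ * (s * k * s))⁻¹ := by rw [hss, mul_one, mul_inv_rev, mul_inv_rev, mul_inv_rev, hsi, inv_inv]; group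

theorem normalizer_le_normalizer_map_center (Q : Subgroup G) :
    Subgroup.normalizer (Q : Set G) ≤ Subgroup.normalizer (((Subgroup.center Q).map Q.subtype : Subgroup G) : Set G) := by
  have key : ∀ g ∈ Subgroup.normalizer (Q : Set G), ∀ x ∈ (Subgroup.center Q).map Q.subtype,
      g * x * g⁻¹ ∈ (Subgroup.center Q).map Q.subtype := by
    rintro g hg _ ⟨x, hx, rfl⟩
    refine ⟨⟨g * (x : G) * g⁻¹, (Subgroup.mem_normalizer_iff.1 hg x).1 x.2⟩, ?_, rfl⟩
    rw [SetLike.mem_coe, Subgroup.mem_center_iff]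
    intro y
    have hy : g⁻¹ * (y : G) * g ∈ Q := (Subgroup.mem_normalizer_iff''.1 hg y).1 y.2
    have h1 : g⁻¹ * (y : G) * g * (x : G) = (x : G) * (g⁻¹ * (y : G) * g) :=
      congrArg Subtype.val (Subgroup.mem_center_iff.1 hx ⟨_, hy⟩)
    refine Subtype.ext ?_
    show (y : G) * (g * (x : G) * g⁻¹) = g * (x : G) * g⁻¹ * (y : G)
    calc (y : G) * (g * (x : G) * g⁻¹) = g * (g⁻¹ * (y : G) * g * (x : G)) * g⁻¹ := by group
      _ = g * ((x : G) * (g⁻¹ * (y : G) * g)) * g⁻¹ := by rw [h1]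
      _ = g * (x : G) * g⁻¹ * (y : G) := by group
  intro g hg
  refine Subgroup.mem_normalizer_iff.2 fun x => ⟨key g hg x, fun hx => ?_⟩
  simpa [mul_assoc] using key g⁻¹ (inv_mem hg) _ hx

/-- No two nested Frobenius complements: a Frobenius complement contained in another one is equal to it. -/
theorem le_of_le [Finite G] {H H₀ : Subgroup G} (hH : Cfsg.IsFrobeniusComplement H)
    (hH₀ : Cfsg.IsFrobeniusComplement H₀) (g : G) (hg : MulAut.conj g • H₀ ≤ H) :
    H ≤ MulAut.conj g • H₀ := by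
  by_contra hnle
  obtain ⟨a, ha, ha1⟩ := H₀.bot_or_exists_ne_one.resolve_left hH₀.1
  have ha' : g * a * g⁻¹ ∈ H := hg (Cfsg.Agent.Solv.mem_conj_smul.2 (by simpa [mul_assoc] using ha))
  have hA := inf_subgroupOf hH₀ g ⟨g * a * g⁻¹, ha', fun e => ha1 (conj_eq_one_iff.1 e),
    by simpa [mul_assoc] using ha⟩ hnle
  set A := (MulAut.conj g • H₀).subgroupOf H with hAdef
  obtain ⟨M, hM, hMn, hMc⟩ := kernel_theorem hA
  obtain ⟨N, hN, hNn, hc⟩ := kernel_theorem hH
  haveI := hMn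
  haveI := hNn
  have hfp : ∀ h ∈ H, h ≠ 1 → N ⊓ Subgroup.centralizer {h} = ⊥ := fun h hh h1 =>
    fpf_of_isFrobeniusComplement hc.disjoint.eq_bot hH hh h1
  have hfpA : ∀ h ∈ A, h ≠ 1 → M ⊓ Subgroup.centralizer {h} = ⊥ := fun h hh h1 =>
    fpf_of_isFrobeniusComplement hMc.disjoint.eq_bot hA hh h1
  -- a prime order element `r` of `A` and an abelian subgroup `W` of `M` normalised by it
  obtain ⟨p, hp, hpd⟩ := Nat.exists_prime_and_dvd (n := Nat.card A)
    (fun h => hA.1 (Subgroup.eq_bot_of_card_eq A h))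
  haveI := Fact.mk hp
  obtain ⟨r, hr⟩ := exists_prime_orderOf_dvd_card' (G := A) p hpd
  have hr1 : (r : H) ≠ 1 := fun e => hp.one_lt.ne' (by rw [← hr, ← Subgroup.orderOf_coe, e, orderOf_one])
  set R := Subgroup.zpowers (r : H) with hR
  have hRA : R ≤ A := Subgroup.zpowers_le.2 r.2
  have hcopA : (Nat.card R).Coprime (Nat.card M) := by
    rw [← hMc.index_eq_card]
    exact (coprime_index hA).coprime_dvd_left (Subgroup.card_dvd_of_le hRA)
  have hRsol : Group.IsSolvable R := Group.isSolvable_of_comm (IsCyclic.commGroup (α := R)).mul_comm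
  obtain ⟨q, hq, hqd⟩ := Nat.exists_prime_and_dvd (n := Nat.card M) (fun h => hA.2.1 (by
    apply Subgroup.index_eq_one.1
    rw [hMc.index_eq_card]; exact h))
  haveI := Fact.mk hq
  obtain ⟨Q, hQ⟩ := Cfsg.Agent.Solv.invariant_sylow (A := R) (K := M)
    (by rw [Subgroup.normalizer_eq_top]; exact le_top) hcopA (Or.inl hRsol) q
  set Q' : Subgroup H := (Q : Subgroup M).map M.subtype with hQ'
  have hQM : Q' ≤ M := Subgroup.map_subtype_le _
  have hQne : Q' ≠ ⊥ := fun e => Q.ne_bot_of_dvd_card hqd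
    ((Subgroup.map_eq_bot_iff_of_injective _ M.subtype_injective).1 e)
  haveI : Nontrivial Q' := (Subgroup.nontrivial_iff_ne_bot _).2 hQne
  set W : Subgroup H := (Subgroup.center Q').map Q'.subtype with hW
  have hWQ : W ≤ Q' := Subgroup.map_subtype_le _
  have hRW : R ≤ Subgroup.normalizer (W : Set H) :=
    hQ.trans (normalizer_le_normalizer_map_center Q')
  have hWne : W ≠ ⊥ := by
    intro e
    haveI : Nontrivial (Subgroup.center Q') := (Q.isPGroup'.map M.subtype).center_nontrivial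
    obtain ⟨z, hz⟩ := exists_ne (1 : Subgroup.center Q')
    have : ((z : Q') : H) ∈ W := Subgroup.mem_map_of_mem _ z.2
    rw [e, Subgroup.mem_bot] at this
    exact hz (Subtype.ext (Subtype.ext this))
  have hWc : ∀ u ∈ W, ∀ v ∈ W, u * v = v * u := by
    rintro _ ⟨u, hu, rfl⟩ _ ⟨v, hv, rfl⟩
    exact (congrArg Q'.subtype (Subgroup.mem_center_iff.1 hu v)).symm
  -- the subgroup `U = W R` acts on an abelian subgroup `V` of the kernel
  set U : Subgroup G := (W ⊔ R).map H.subtype with hU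
  have hUH : U ≤ H := Subgroup.map_subtype_le _
  have hUN : (Nat.card U).Coprime (Nat.card N) := by
    rw [← hc.index_eq_card]
    exact (coprime_index hH).coprime_dvd_left (Subgroup.card_dvd_of_le hUH)
  have hUsol : Group.IsSolvable U := by
    haveI : (W.subgroupOf (W ⊔ R)).Normal :=
      Subgroup.normal_subgroupOf_of_le_normalizer (sup_le Subgroup.le_normalizer hRW)
    haveI : Group.IsSolvable (W.subgroupOf (W ⊔ R)) := Group.isSolvable_of_comm fun u v =>
      Subtype.ext (Subtype.ext (hWc _ u.2 _ v.2))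
    haveI : Group.IsSolvable ((W ⊔ R : Subgroup H) ⧸ W.subgroupOf (W ⊔ R)) := by
      haveI := hRsol
      refine Group.isSolvable_of_surjective (f := (QuotientGroup.mk' (W.subgroupOf (W ⊔ R))).comp
        (Subgroup.inclusion (le_sup_right : R ≤ W ⊔ R))) ?_
      intro y
      obtain ⟨⟨x, hx⟩, rfl⟩ := QuotientGroup.mk'_surjective (W.subgroupOf (W ⊔ R)) y
      have hx' := hx
      rw [← SetLike.mem_coe, sup_comm, Subgroup.coe_mul_of_left_le_normalizer_right R W hRW] at hx'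
      obtain ⟨b, hb, w, hw, rfl⟩ := hx'
      refine ⟨⟨b, hb⟩, ?_⟩
      refine QuotientGroup.eq.2 ?_
      rw [Subgroup.mem_subgroupOf]
      simpa using hw
    haveI : Group.IsSolvable (W ⊔ R : Subgroup H) :=
      Group.isSolvable_of_ker_le_range (W.subgroupOf (W ⊔ R)).subtype
        (QuotientGroup.mk' (W.subgroupOf (W ⊔ R))) (by simp)
    exact Group.isSolvable_of_surjective (f := (H.subtype.subgroupMap (W ⊔ R)))
      (H.subtype.subgroupMap_surjective _)
  obtain ⟨s, hs, hsd⟩ := Nat.exists_prime_and_dvd (n := Nat.card N) (fun h => hH.2.1 (by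
    apply Subgroup.index_eq_one.1
    rw [hc.index_eq_card]; exact h))
  haveI := Fact.mk hs
  obtain ⟨S, hS⟩ := Cfsg.Agent.Solv.invariant_sylow (A := U) (K := N)
    (by rw [Subgroup.normalizer_eq_top]; exact le_top) hUN (Or.inl hUsol) s
  set S' : Subgroup G := (S : Subgroup N).map N.subtype with hS'
  have hSne : S' ≠ ⊥ := fun e => S.ne_bot_of_dvd_card hsd
    ((Subgroup.map_eq_bot_iff_of_injective _ N.subtype_injective).1 e)
  haveI : Nontrivial S' := (Subgroup.nontrivial_iff_ne_bot _).2 hSne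
  set V : Subgroup G := (Subgroup.center S').map S'.subtype with hV
  have hVN : V ≤ N := (Subgroup.map_subtype_le _).trans (Subgroup.map_subtype_le _)
  have hUV : U ≤ Subgroup.normalizer (V : Set G) :=
    hS.trans (normalizer_le_normalizer_map_center S')
  haveI : Nontrivial (Subgroup.center S') := (S.isPGroup'.map N.subtype).center_nontrivial
  obtain ⟨z, hz⟩ := exists_ne (1 : Subgroup.center S')
  set v : G := ((z : S') : G) with hv
  have hvV : v ∈ V := Subgroup.mem_map_of_mem _ z.2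
  apply hz
  refine Subtype.ext (Subtype.ext ?_)
  show v = 1
  classical
  letI : CommGroup V := { (inferInstance : Group V) with
    mul_comm := fun a b => by
      obtain ⟨a', ha', hae⟩ := a.2
      obtain ⟨b', hb', hbe⟩ := b.2
      refine Subtype.ext ?_
      show (a : G) * b = b * a
      rw [← hae, ← hbe]
      exact (congrArg S'.subtype (Subgroup.mem_center_iff.1 ha' b')).symm }
  let act : U → V →* V := fun u =>
    { toFun := fun x => ⟨(u : G) * x * (u : G)⁻¹, (Subgroup.mem_normalizer_iff.1 (hUV u.2) x).1 x.2⟩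
      map_one' := Subtype.ext (by simp)
      map_mul' := fun a b => Subtype.ext (show (u : G) * ((a : G) * b) * (u : G)⁻¹ =
        (u : G) * a * (u : G)⁻¹ * ((u : G) * b * (u : G)⁻¹) by group) }
  have hfix : ∀ (u : U) (x : V), (u : G) ≠ 1 → act u x = x → x = 1 := by
    intro u x hu hx
    have h1 : (x : G) ∈ N ⊓ Subgroup.centralizer {(u : G)} := by
      refine ⟨hVN x.2, Subgroup.mem_centralizer_singleton_iff.2 ?_⟩
      exact (mul_inv_eq_iff_eq_mul.1 (congrArg Subtype.val hx)).symm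
    rw [hfp _ (hUH u.2) hu, Subgroup.mem_bot] at h1
    exact Subtype.ext h1
  haveI := Fintype.ofFinite W
  have hrU : ((r : H) : G) ∈ U := ⟨(r : H), (le_sup_right : R ≤ W ⊔ R) (Subgroup.mem_zpowers _), rfl⟩
  let wU : W → U := fun w => ⟨((w : H) : G), ⟨(w : H), (le_sup_left : W ≤ W ⊔ R) w.2, rfl⟩⟩
  let rU : U := ⟨_, hrU⟩
  let vV : V := ⟨v, hvV⟩
  have hact : ∀ (a b : U) (x : V), act a (act b x) = act (a * b) x := fun a b x => Subtype.ext (by
    show (a : G) * ((b : G) * x * (b : G)⁻¹) * (a : G)⁻¹ = (a : G) * (b : G) * x * ((a : G) * (b : G))⁻¹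
    group)
  -- for each `w`, the product over the conjugate cyclic group is trivial
  have hrp : ∀ i : ℕ, (rU ^ i : U) = 1 → p ∣ i := by
    intro i hi
    have h1 : ((r : H) : G) ^ i = 1 := congrArg Subtype.val hi
    rw [← Subgroup.coe_pow, OneMemClass.coe_eq_one] at h1
    rw [← hr, ← Subgroup.orderOf_coe]
    exact orderOf_dvd_of_pow_eq_one h1
  have hrpow : rU ^ p = 1 := Subtype.ext (by
    show ((r : H) : G) ^ p = 1
    rw [← Subgroup.coe_pow, OneMemClass.coe_eq_one, ← hr, ← Subgroup.orderOf_coe, pow_orderOf_eq_one])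
  have hinner : ∀ w : W, ∏ i ∈ Finset.range p, act (wU w * rU ^ i * (wU w)⁻¹) vV = 1 := by
    intro w
    set c := wU w * rU * (wU w)⁻¹ with hcdef
    have hci : ∀ i, wU w * rU ^ i * (wU w)⁻¹ = c ^ i := fun i => conj_pow.symm
    simp only [hci]
    refine hfix c _ (fun e => hr1 ?_) ?_
    · have e' : c = 1 := Subtype.ext e
      have e2 : rU = 1 := conj_eq_one_iff.1 e'
      have h9 : ((r : H) : G) = 1 := congrArg Subtype.val e2
      exact Subtype.ext h9
    · rw [map_prod]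
      simp only [hact, ← pow_succ']
      have h3 := (Finset.prod_range_succ (fun i => act (c ^ i) vV) p).symm.trans (Finset.prod_range_succ' _ p)
      rw [show c ^ p = c ^ 0 by rw [hcdef, conj_pow, hrpow, mul_one, mul_inv_cancel, pow_zero]] at h3
      exact (mul_right_cancel h3).symm
  have hswap : ∏ i ∈ Finset.range p, ∏ w : W, act (wU w * rU ^ i * (wU w)⁻¹) vV = 1 := by
    rw [Finset.prod_comm]
    exact Finset.prod_eq_one fun w _ => hinner w
  have hother : ∀ i ∈ Finset.range p, i ≠ 0 → ∏ w : W, act (wU w * rU ^ i * (wU w)⁻¹) vV = 1 := by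
    intro i hi hi0
    have hrn : ∀ u ∈ W, ((r : H) ^ i) * u * ((r : H) ^ i)⁻¹ ∈ W := fun u hu =>
      (Subgroup.mem_normalizer_iff.1 (hRW (Subgroup.pow_mem R (Subgroup.mem_zpowers _) i)) u).1 hu
    let τ : W → W := fun w => ⟨(w : H) * ((r : H) ^ i * (w : H)⁻¹ * ((r : H) ^ i)⁻¹),
      W.mul_mem w.2 (hrn _ (W.inv_mem w.2))⟩
    have hri : (r : H) ^ i ≠ 1 := fun e => hi0 (by
      have h1 : p ∣ i := by rw [← hr, ← Subgroup.orderOf_coe]; exact orderOf_dvd_of_pow_eq_one e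
      exact Nat.eq_zero_of_dvd_of_lt h1 (Finset.mem_range.1 hi))
    have hτ : Function.Bijective τ := by
      refine Finite.injective_iff_bijective.1 fun a b e => ?_
      have e1 : (a : H) * ((r : H) ^ i * (a : H)⁻¹ * ((r : H) ^ i)⁻¹) =
          (b : H) * ((r : H) ^ i * (b : H)⁻¹ * ((r : H) ^ i)⁻¹) := congrArg Subtype.val e
      have h2 : (b : H)⁻¹ * (a : H) ∈ M ⊓ Subgroup.centralizer {(r : H) ^ i} := by
        refine ⟨M.mul_mem (M.inv_mem (hQM (hWQ b.2))) (hQM (hWQ a.2)), Subgroup.mem_centralizer_singleton_iff.2 ?_⟩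
        calc (b : H)⁻¹ * (a : H) * (r : H) ^ i
            = (b : H)⁻¹ * ((a : H) * ((r : H) ^ i * (a : H)⁻¹ * ((r : H) ^ i)⁻¹)) * (r : H) ^ i * (a : H) := by group
          _ = (r : H) ^ i * ((b : H)⁻¹ * (a : H)) := by rw [e1]; group
      rw [hfpA _ (hRA (Subgroup.pow_mem R (Subgroup.mem_zpowers _) i)) hri, Subgroup.mem_bot, inv_mul_eq_one] at h2
      exact (Subtype.ext h2).symm
    have hrew : ∀ w : W, act (wU w * rU ^ i * (wU w)⁻¹) vV = act (wU (τ w)) (act (rU ^ i) vV) := by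
      intro w
      rw [hact]
      refine congrArg (fun u => act u vV) (Subtype.ext ?_)
      show ((w : H) : G) * ((r : H) : G) ^ i * ((w : H) : G)⁻¹ =
        (((w : H) * ((r : H) ^ i * (w : H)⁻¹ * ((r : H) ^ i)⁻¹) : H) : G) * ((r : H) : G) ^ i
      push_cast
      group
    simp only [hrew]
    rw [Function.Bijective.prod_comp hτ (fun w => act (wU w) (act (rU ^ i) vV))]
    obtain ⟨w₀, hw₀, hw1⟩ := W.bot_or_exists_ne_one.resolve_left hWne
    refine hfix (wU ⟨w₀, hw₀⟩) _ (fun e => hw1 (Subtype.ext e)) ?_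
    rw [map_prod]
    simp only [hact]
    exact Fintype.prod_equiv (Equiv.mulLeft (⟨w₀, hw₀⟩ : W)) _ _ (fun w => congrArg (fun u => act u vV) (Subtype.ext (by simp [wU, mul_assoc])))
  have hzero : ∏ w : W, act (wU w * rU ^ 0 * (wU w)⁻¹) vV = vV ^ Nat.card W := by
    rw [Finset.prod_congr rfl (fun w _ => show act (wU w * rU ^ 0 * (wU w)⁻¹) vV = vV from by
      rw [pow_zero, mul_one, mul_inv_cancel]
      exact Subtype.ext (by show (1 : G) * v * (1 : G)⁻¹ = v; simp)), Finset.prod_const, Finset.card_univ,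
      Nat.card_eq_fintype_card]
  rw [Finset.prod_eq_single 0 hother (fun h => absurd (Finset.mem_range.2 hp.pos) h), hzero] at hswap
  have h5 : orderOf v ∣ Nat.card W := orderOf_dvd_of_pow_eq_one (congrArg Subtype.val hswap)
  have h6 : orderOf v ∣ Nat.card N := Subgroup.orderOf_dvd_natCard N (hVN hvV)
  have h7 : (Nat.card W).Coprime (Nat.card N) := by
    rw [← hc.index_eq_card]
    exact (coprime_index hH).coprime_dvd_left W.card_subgroup_dvd_card
  exact orderOf_eq_one_iff.1 (Nat.eq_one_of_dvd_coprimes h7 h5 h6)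

end Cfsg.Agent.Frob
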